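import Cfsg.Agent.Schur.SLnMult
import Cfsg.Agent.SLn.Card
import Mathlib

set_option autoImplicit false

/-!
Unipotent elements of `PSL₃(4)`.
-/

namespace CfsgLib.L34

open Matrix Matrix.SpecialLinearGroup CfsgLib.Schur.SLMult
open scoped commutatorElement

variable (F : Type*) [Field F]

/-- The group. -/
abbrev P3 := Matrix.ProjectiveSpecialLinearGroup (Fin 3) F

variable {F}

/-- The image of a transvection. -/
def tr (i j : Fin 3) (t : F) : P3 F := QuotientGroup.mk (T i j t)

/-- Diagonal element `diag (v, v⁻¹, 1)`. -/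
noncomputable def dg (v : Fˣ) : P3 F :=
  QuotientGroup.mk (Dg (show (0 : Fin 3) ≠ 1 by decide) v)

theorem tr_add {i j : Fin 3} (h : i ≠ j) (t u : F) : tr i j t * tr i j u = tr i j (t + u) := by
  rw [tr, tr, ← QuotientGroup.mk_mul, T_add h]; rfl

theorem tr_zero {i j : Fin 3} (h : i ≠ j) : tr i j (0 : F) = 1 := by
  rw [tr, T_zero h]; rfl

theorem tr_comm {i j k l : Fin 3} (hij : i ≠ j) (hkl : k ≠ l) (hil : i ≠ l) (hjk : j ≠ k) (t u : F) :
    Commute (tr i j t) (tr k l u) := by
  change (_ : P3 F) * _ = _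
  rw [tr, tr, ← QuotientGroup.mk_mul, (T_comm hij hkl hil hjk t u).eq]; rfl

theorem tr_triple {i j l : Fin 3} (hij : i ≠ j) (hjl : j ≠ l) (hil : i ≠ l) (t u : F) :
    ⁅tr i j t, tr j l u⁆ = tr i l (t * u) := by
  have h : ⁅QuotientGroup.mk' (Subgroup.center (SpecialLinearGroup (Fin 3) F)) (T i j t),
      QuotientGroup.mk' (Subgroup.center (SpecialLinearGroup (Fin 3) F)) (T j l u)⁆ =
      QuotientGroup.mk' (Subgroup.center (SpecialLinearGroup (Fin 3) F)) (T i l (t * u)) := by
    rw [← map_commutatorElement, T_triple hij hjl hil]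
  exact h

/-- A unipotent element. -/
def uS (a b c : F) : SpecialLinearGroup (Fin 3) F := T 0 1 a * T 1 2 b * T 0 2 c

/-- A unipotent element of the projective group. -/
def uEl (a b c : F) : P3 F := QuotientGroup.mk (uS a b c)

theorem uEl_eq (a b c : F) : uEl a b c = tr 0 1 a * tr 1 2 b * tr 0 2 c := rfl

theorem coe_uS (a b c : F) :
    (uS a b c : Matrix (Fin 3) (Fin 3) F) = !![1, a, c + a * b; 0, 1, b; 0, 0, 1] := by
  rw [uS, T, T, T, dif_neg (show (0 : Fin 3) ≠ 1 by decide), dif_neg (show (1 : Fin 3) ≠ 2 by decide),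
    dif_neg (show (0 : Fin 3) ≠ 2 by decide), coe_mul, coe_mul]
  ext i j
  fin_cases i <;> fin_cases j <;>
    simp [Matrix.mul_apply, Fin.sum_univ_three, SpecialLinearGroup.transvection, Matrix.transvection,
      Matrix.single, Matrix.one_apply] <;> ring

theorem uS_injective {a b c a' b' c' : F} (e : uS a b c = uS a' b' c') : a = a' ∧ b = b' ∧ c = c' := by
  have h := congrArg (fun g : SpecialLinearGroup (Fin 3) F => (g : Matrix (Fin 3) (Fin 3) F)) e
  simp only [coe_uS] at h
  have h1 := congrFun (congrFun h 0) 1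
  have h2 := congrFun (congrFun h 1) 2
  have h3 := congrFun (congrFun h 0) 2
  simp at h1 h2 h3
  subst h1 h2
  exact ⟨rfl, rfl, by simpa using h3⟩

theorem uEl_injective {a b c a' b' c' : F} (e : uEl a b c = uEl a' b' c') :
    a = a' ∧ b = b' ∧ c = c' := by
  have h := QuotientGroup.eq.1 e
  obtain ⟨r, -, hr⟩ := mem_center_iff.1 h
  have h1 : uS a' b' c' = uS a b c * ((uS a b c)⁻¹ * uS a' b' c') := by rw [mul_inv_cancel_left]
  have h2 := congrArg (fun g : SpecialLinearGroup (Fin 3) F => (g : Matrix (Fin 3) (Fin 3) F)) h1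
  simp only [coe_mul] at h2
  rw [coe_mul] at hr
  rw [← hr, coe_uS, coe_uS] at h2
  have h00 : (1 : F) = r := by
    simpa [Matrix.scalar_apply, Matrix.mul_apply, Fin.sum_univ_three] using congrFun (congrFun h2 0) 0
  subst h00
  refine uS_injective (Subtype.ext ?_)
  rw [coe_uS, coe_uS]
  simpa using h2.symm

section four

variable [Fintype F] (h4 : Fintype.card F = 4)
include h4

theorem two : (2 : F) = 0 := by
  have h : ringChar F = 2 :=
    FiniteField.even_card_iff_char_two.mpr (Nat.even_iff.mp ⟨2, by rw [h4]⟩)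
  have := ringChar.Nat.cast_ringChar (R := F)
  rw [h] at this
  exact_mod_cast this

theorem pow_four (x : F) : x ^ 4 = x := by
  have := FiniteField.pow_card x
  rwa [h4] at this

theorem exists_gen : ∃ w : F, w ^ 2 = w + 1 := by
  classical
  obtain ⟨x, -, hx⟩ := Finset.exists_mem_notMem_of_card_lt_card
    (show ({0, 1} : Finset F).card < (Finset.univ : Finset F).card by
      rw [Finset.card_univ, h4]
      exact lt_of_le_of_lt Finset.card_le_two (by norm_num))
  simp only [Finset.mem_insert, Finset.mem_singleton, not_or] at hx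
  have h1 : x * (x - 1) * (x ^ 2 + x + 1) = 0 := by linear_combination pow_four h4 x
  rcases mul_eq_zero.1 h1 with h2 | h2
  · exact absurd h2 (mul_ne_zero hx.1 (sub_ne_zero.2 hx.2))
  · exact ⟨x, by linear_combination h2 - (x + 1) * two h4⟩

theorem cases4 {w : F} (hw : w ^ 2 = w + 1) (x : F) : x = 0 ∨ x = 1 ∨ x = w ∨ x = w ^ 2 := by
  have h1 : x * (x - 1) * ((x - w) * (x - w ^ 2)) = 0 := by
    have h2 := two h4
    have h3 := pow_four h4 x
    grobner
  rcases mul_eq_zero.1 h1 with h2 | h2 <;> rcases mul_eq_zero.1 h2 with h3 | h3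
  · exact Or.inl h3
  · exact Or.inr (Or.inl (sub_eq_zero.1 h3))
  · exact Or.inr (Or.inr (Or.inl (sub_eq_zero.1 h3)))
  · exact Or.inr (Or.inr (Or.inr (sub_eq_zero.1 h3)))

theorem uS_mul (a b c a' b' c' : F) :
    uS a b c * uS a' b' c' = uS (a + a') (b + b') (c + c' + a' * b) := by
  refine Subtype.ext ?_
  rw [coe_mul, coe_uS, coe_uS, coe_uS]
  have h2 := two h4
  ext i j
  fin_cases i <;> fin_cases j <;> simp [Matrix.mul_apply, Fin.sum_univ_three] <;>
    first
      | linear_combination (0 : F) * h2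
      | linear_combination (-(a' * b)) * h2

theorem uEl_mul (a b c a' b' c' : F) :
    uEl a b c * uEl a' b' c' = uEl (a + a') (b + b') (c + c' + a' * b) :=
  (QuotientGroup.mk_mul _ _ _).symm.trans (congrArg QuotientGroup.mk (uS_mul h4 a b c a' b' c'))

theorem uEl_zero : uEl (0 : F) 0 0 = 1 := by
  rw [uEl_eq, tr_zero (by decide), tr_zero (by decide), tr_zero (by decide), one_mul, one_mul]

theorem uEl_inv (a b c : F) : (uEl a b c)⁻¹ = uEl a b (c + a * b) := by
  refine inv_eq_of_mul_eq_one_right ?_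
  have h2 := two h4
  rw [uEl_mul h4, show a + a = 0 by linear_combination a * h2, show b + b = 0 by linear_combination b * h2,
    show c + (c + a * b) + a * b = 0 by linear_combination (c + a * b) * h2, uEl_zero h4]

/-- The Sylow 2-subgroup of upper unitriangular elements. -/
def Usub : Subgroup (P3 F) where
  carrier := {g | ∃ a b c : F, g = uEl a b c}
  one_mem' := ⟨0, 0, 0, (uEl_zero h4).symm⟩
  mul_mem' := by
    rintro _ _ ⟨a, b, c, rfl⟩ ⟨a', b', c', rfl⟩
    exact ⟨_, _, _, uEl_mul h4 a b c a' b' c'⟩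
  inv_mem' := by
    rintro _ ⟨a, b, c, rfl⟩
    exact ⟨_, _, _, uEl_inv h4 a b c⟩

theorem card_Usub : Nat.card (Usub h4) = 64 := by
  let e : F × F × F ≃ Usub h4 := Equiv.ofBijective
    (fun v => ⟨uEl v.1 v.2.1 v.2.2, _, _, _, rfl⟩)
    ⟨fun v v' e => by
      obtain ⟨h1, h2, h3⟩ := uEl_injective (congrArg Subtype.val e)
      exact Prod.ext h1 (Prod.ext h2 h3),
    fun g => by
      obtain ⟨a, b, c, hg⟩ := g.2
      exact ⟨(a, b, c), Subtype.ext hg.symm⟩⟩
  rw [← Nat.card_congr e, Nat.card_prod, Nat.card_prod, Nat.card_eq_fintype_card, h4]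

theorem card_P3 : Nat.card (P3 F) = 20160 := by
  have h := CfsgLib.SLn.card_PSL_eq F 3 (by norm_num)
  rw [h4, Fin.prod_univ_three] at h
  norm_num [show Nat.gcd 3 3 = 3 from rfl] at h
  change Nat.card (Matrix.ProjectiveSpecialLinearGroup (Fin 3) F) = 20160
  omega

theorem index_Usub : (Usub h4).index = 315 := by
  have h := Subgroup.card_mul_index (Usub h4)
  rw [card_Usub h4, card_P3 h4] at h
  omega

theorem dg_conj {i j : Fin 3} (hij : i ≠ j) (v : Fˣ) (t : F) :
    dg v * tr i j t * (dg v)⁻¹ =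
      tr i j ((if i = 0 then (v : F) else if i = 1 then (v : F)⁻¹ else 1) * t /
        (if j = 0 then (v : F) else if j = 1 then (v : F)⁻¹ else 1)) :=
  congrArg (QuotientGroup.mk' (Subgroup.center (SpecialLinearGroup (Fin 3) F)))
    (Dg_conj (show (0 : Fin 3) ≠ 1 by decide) v hij t)

end four

end CfsgLib.L34
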