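/-
Preimages of the two maximal elementary subgroups of a Sylow subgroup in a two-fold central
extension of the three-dimensional linear group over four elements, and their complements.
-/
import Cfsg.Agent.L34.Unip
import Cfsg.Agent.SLn.Basic
import Mathlib

set_option autoImplicit false

namespace CfsgLib.L34

open Matrix Matrix.SpecialLinearGroup

variable {F : Type*} [Field F]

/-- The block embedding. -/
def blkM (M : Matrix (Fin 2) (Fin 2) F) : Matrix (Fin 3) (Fin 3) F :=
  !![M 0 0, M 0 1, 0; M 1 0, M 1 1, 0; 0, 0, 1]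

/-- The block embedding of the special group. -/
def blkS : SpecialLinearGroup (Fin 2) F →* SpecialLinearGroup (Fin 3) F where
  toFun M := ⟨blkM (M : Matrix (Fin 2) (Fin 2) F), by
    have h := M.det_coe
    rw [Matrix.det_fin_two] at h
    rw [Matrix.det_fin_three]; simp [blkM]; linear_combination h⟩
  map_one' := Subtype.ext (by
    ext i j; fin_cases i <;> fin_cases j <;> simp [blkM])
  map_mul' M N := Subtype.ext (by
    show blkM ((M * N : SpecialLinearGroup (Fin 2) F) : Matrix (Fin 2) (Fin 2) F) =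
      blkM (M : Matrix (Fin 2) (Fin 2) F) * blkM (N : Matrix (Fin 2) (Fin 2) F)
    rw [coe_mul]
    ext i j; fin_cases i <;> fin_cases j <;> simp [blkM, Matrix.mul_apply, Fin.sum_univ_succ])

/-- The block embedding into the projective group. -/
def blk : SpecialLinearGroup (Fin 2) F →* P3 F :=
  (QuotientGroup.mk' _).comp blkS

/-- The column translation. -/
def aEl (v : Fin 2 → F) : P3 F := uEl 0 (v 1) (v 0)

theorem coe_blkS (M : SpecialLinearGroup (Fin 2) F) :
    (blkS M : Matrix (Fin 3) (Fin 3) F) = blkM (M : Matrix (Fin 2) (Fin 2) F) := rfl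

theorem blk_injective : Function.Injective (blk (F := F)) := by
  refine (injective_iff_map_eq_one _).2 fun M hM => ?_
  obtain ⟨r, -, hr⟩ := mem_center_iff.1 ((QuotientGroup.eq_one_iff _).1 hM)
  rw [coe_blkS] at hr
  have h := fun i j => congrFun (congrFun hr i) j
  have h22 : r = 1 := by simpa [blkM, Matrix.scalar_apply] using h 2 2
  subst h22
  refine Subtype.ext (Matrix.ext fun i j => ?_)
  have h00 := h 0 0
  have h01 := h 0 1
  have h10 := h 1 0
  have h11 := h 1 1
  simp [blkM] at h00 h01 h10 h11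
  fin_cases i <;> fin_cases j <;> simp [← h00, ← h01, ← h10, ← h11]

theorem blk_conj (M : SpecialLinearGroup (Fin 2) F) (v : Fin 2 → F) :
    blk M * aEl v = aEl ((M : Matrix (Fin 2) (Fin 2) F) *ᵥ v) * blk M := by
  show (QuotientGroup.mk (blkS M * uS 0 (v 1) (v 0)) : P3 F) = QuotientGroup.mk (_ * blkS M)
  refine congrArg QuotientGroup.mk (Subtype.ext ?_)
  rw [coe_mul, coe_mul, coe_uS, coe_uS, coe_blkS]
  ext i j
  fin_cases i <;> fin_cases j <;>
    simp [blkM, Matrix.mul_apply, Fin.sum_univ_succ, Matrix.mulVec, dotProduct]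

theorem blk_aEl (M : SpecialLinearGroup (Fin 2) F) (v : Fin 2 → F) :
    blk M * aEl v * (blk M)⁻¹ = aEl ((M : Matrix (Fin 2) (Fin 2) F) *ᵥ v) := by
  rw [blk_conj, mul_inv_cancel_right]

variable [Fintype F] (h4 : Fintype.card F = 4)
include h4

/-- The column subgroup. -/
def Acol : Subgroup (P3 F) where
  carrier := {g | ∃ v : Fin 2 → F, g = aEl v}
  one_mem' := ⟨0, (uEl_zero h4).symm⟩
  mul_mem' := by
    rintro _ _ ⟨v, rfl⟩ ⟨v', rfl⟩
    refine ⟨v + v', ?_⟩
    simp [aEl, uEl_mul h4]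
  inv_mem' := by
    rintro _ ⟨v, rfl⟩
    refine ⟨v, ?_⟩
    simp [aEl, uEl_inv h4]

theorem aEl_add (v v' : Fin 2 → F) : aEl v * aEl v' = aEl (v + v') := by simp [aEl, uEl_mul h4]

theorem aEl_sq (v : Fin 2 → F) : aEl v * aEl v = 1 := by
  rw [aEl_add h4, show v + v = 0 from funext fun i => by
    show v i + v i = 0
    linear_combination (v i) * two h4]
  simpa [aEl] using uEl_zero (F := F) h4

omit h4 [Fintype F] in
theorem aEl_inj {v v' : Fin 2 → F} (e : aEl v = aEl v') : v = v' := by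
  obtain ⟨-, h1, h2⟩ := uEl_injective e
  funext i; fin_cases i <;> assumption

theorem Acol_le : Acol h4 ≤ Usub h4 := by
  rintro _ ⟨v, rfl⟩; exact ⟨_, _, _, rfl⟩

theorem card_Acol : Nat.card (Acol h4) = 16 := by
  let e : (Fin 2 → F) ≃ Acol h4 := Equiv.ofBijective (fun v => ⟨aEl v, v, rfl⟩)
    ⟨fun v v' e => aEl_inj (congrArg Subtype.val e), fun g => by
      obtain ⟨v, hv⟩ := g.2; exact ⟨v, Subtype.ext hv.symm⟩⟩
  rw [← Nat.card_congr e, Nat.card_fun, Nat.card_fin, Nat.card_eq_fintype_card, h4]; norm_num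

/-- The normaliser of the column subgroup. -/
theorem normalizer_Acol :
    Subgroup.normalizer (Acol h4 : Set (P3 F)) = Acol h4 ⊔ (blk (F := F)).range := by
  refine le_antisymm (fun g hg => ?_) (sup_le Subgroup.le_normalizer ?_)
  · obtain ⟨S, rfl⟩ := QuotientGroup.mk_surjective g
    obtain ⟨v', hv'⟩ := (Subgroup.mem_normalizer_iff.1 hg (aEl ![1, 0])).1 ⟨_, rfl⟩
    have hne : v' ≠ 0 := by
      rintro rfl
      have h0 : aEl (0 : Fin 2 → F) = 1 := by simpa [aEl] using uEl_zero (F := F) h4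
      rw [h0, mul_inv_eq_one] at hv'
      have h10 := aEl_inj ((mul_eq_left.1 hv').trans h0.symm)
      simpa using congrFun h10 0
    have hq : (QuotientGroup.mk (S * uS 0 0 1) : P3 F) = QuotientGroup.mk (uS 0 (v' 1) (v' 0) * S) := by
      rw [QuotientGroup.mk_mul, QuotientGroup.mk_mul]
      rw [mul_inv_eq_iff_eq_mul] at hv'
      simpa [aEl, uEl] using hv'
    obtain ⟨r, hr3, hr⟩ := mem_center_iff.1 (QuotientGroup.eq.1 hq)
    have hz : ((uS 0 (v' 1) (v' 0) * S : SpecialLinearGroup (Fin 3) F) : Matrix (Fin 3) (Fin 3) F) =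
        ((S * uS 0 0 1 : SpecialLinearGroup (Fin 3) F) : Matrix (Fin 3) (Fin 3) F) *
          Matrix.scalar (Fin 3) r := by
      rw [hr, ← coe_mul, mul_inv_cancel_left]
    rw [coe_mul, coe_mul, coe_uS, coe_uS] at hz
    set m : Matrix (Fin 3) (Fin 3) F := (S : Matrix (Fin 3) (Fin 3) F) with hm
    have e := fun i j => congrFun (congrFun hz i) j
    have e00 := e 0 0; have e10 := e 1 0; have e20 := e 2 0
    have e01 := e 0 1; have e11 := e 1 1; have e21 := e 2 1
    simp [Matrix.mul_apply, Fin.sum_univ_succ, Matrix.scalar_apply, Matrix.diagonal] at e00 e10 e20 e01 e11 e21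
    have hz2 : m 2 0 = 0 ∧ m 2 1 = 0 := by
      by_cases hr1 : r = 1
      · subst hr1
        simp at e00 e10 e01 e11
        by_cases h1 : v' 1 = 0
        · have h0 : v' 0 ≠ 0 := fun h0 => hne (funext fun i => by fin_cases i <;> assumption)
          exact ⟨e00.resolve_left h0, e01.resolve_left h0⟩
        · exact ⟨e10.resolve_left h1, e11.resolve_left h1⟩
      · refine ⟨?_, ?_⟩
        · rcases mul_eq_zero.1 (show m 2 0 * (1 - r) = 0 by linear_combination e20) with h | h
          · exact h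
          · exact absurd (sub_eq_zero.1 h).symm hr1
        · rcases mul_eq_zero.1 (show m 2 1 * (1 - r) = 0 by linear_combination e21) with h | h
          · exact h
          · exact absurd (sub_eq_zero.1 h).symm hr1
    obtain ⟨h20, h21⟩ := hz2
    have hdet := S.det_coe
    rw [← hm, Matrix.det_fin_three, h20, h21] at hdet
    have hs : m 2 2 ≠ 0 := fun h => by rw [h] at hdet; simp at hdet
    set t := (m 2 2)⁻¹
    have ht : t * m 2 2 = 1 := inv_mul_cancel₀ hs
    have ht3 : t ^ 3 = 1 := by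
      have h := FiniteField.pow_card_sub_one_eq_one t (inv_ne_zero hs)
      rwa [h4] at h
    let M : SpecialLinearGroup (Fin 2) F := ⟨!![t * m 0 0, t * m 0 1; t * m 1 0, t * m 1 1], by
      rw [Matrix.det_fin_two_of]
      linear_combination t ^ 3 * hdet - t ^ 2 * (m 0 0 * m 1 1 - m 0 1 * m 1 0) * ht + ht3⟩
    have hS : (QuotientGroup.mk S : P3 F) = aEl ![t * m 0 2, t * m 1 2] * blk M := by
      show (QuotientGroup.mk S : P3 F) = QuotientGroup.mk (uS 0 (t * m 1 2) (t * m 0 2) * blkS M)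
      rw [QuotientGroup.eq]
      refine mem_center_iff.2 ⟨t, by rw [Fintype.card_fin]; exact ht3, ?_⟩
      have hX : ((uS 0 (t * m 1 2) (t * m 0 2) * blkS M : SpecialLinearGroup (Fin 3) F) :
          Matrix (Fin 3) (Fin 3) F) = m * Matrix.scalar (Fin 3) t := by
        rw [coe_mul, coe_uS, coe_blkS]
        ext i j
        fin_cases i <;> fin_cases j <;>
          simp [blkM, M, Matrix.mul_apply, Fin.sum_univ_succ, Matrix.scalar_apply, Matrix.diagonal, h20, h21] <;>
          first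
            | exact mul_comm _ _
            | linear_combination -ht
      rw [coe_mul S⁻¹, hX, ← mul_assoc, hm, ← coe_mul, inv_mul_cancel, coe_one, one_mul]
    rw [hS]
    exact mul_mem (Subgroup.mem_sup_left ⟨_, rfl⟩) (Subgroup.mem_sup_right ⟨M, rfl⟩)
  · rintro _ ⟨M, rfl⟩
    rw [Subgroup.mem_normalizer_iff]
    refine fun g => ⟨?_, fun hg => ?_⟩
    · rintro ⟨v, rfl⟩; exact ⟨_, blk_aEl M v⟩
    · obtain ⟨v, hv⟩ := hg
      refine ⟨((M⁻¹ : SpecialLinearGroup (Fin 2) F) : Matrix (Fin 2) (Fin 2) F) *ᵥ v, ?_⟩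
      rw [← blk_aEl, map_inv, ← hv]; group

/-- An elementary subgroup of order sixteen of the Sylow subgroup. -/
theorem eq_Acol {A : Subgroup (P3 F)} (hA : A ≤ Usub h4) (hsq : ∀ x ∈ A, x * x = 1) :
    (∀ x ∈ A, ∃ v : Fin 2 → F, x = aEl v) ∨ (∀ x ∈ A, ∃ a c : F, x = uEl a 0 c) := by
  have hU : ∀ x ∈ A, (∃ v : Fin 2 → F, x = aEl v) ∨ (∃ a c : F, x = uEl a 0 c) := by
    intro x hx
    obtain ⟨a, b, c, rfl⟩ := hA hx
    have h := hsq _ hx
    rw [uEl_mul h4, ← uEl_zero (F := F) h4] at h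
    obtain ⟨-, -, h3⟩ := uEl_injective h
    have : a * b = 0 := by linear_combination h3 - c * two h4
    rcases mul_eq_zero.1 this with rfl | rfl
    · exact Or.inl ⟨![c, b], by simp [aEl]⟩
    · exact Or.inr ⟨a, c, rfl⟩
  by_contra hne
  push Not at hne
  obtain ⟨⟨x, hx, hx'⟩, ⟨y, hy, hy'⟩⟩ := hne
  obtain ⟨a, c, rfl⟩ := (hU x hx).resolve_left fun ⟨v, hv⟩ => hx' v hv
  obtain ⟨v, rfl⟩ := (hU y hy).resolve_right fun ⟨a, c, h⟩ => hy' a c h
  rcases hU _ (mul_mem hx hy) with ⟨w, hw⟩ | ⟨a', c', hw⟩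
  · simp only [aEl, uEl_mul h4, add_zero, zero_add] at hw
    refine hx' ![c, 0] ?_
    simp [aEl, (uEl_injective hw).1]
  · simp only [aEl, uEl_mul h4, add_zero, zero_add] at hw
    refine hy' 0 (v 0) ?_
    simp [aEl, (uEl_injective hw).2.1]

end CfsgLib.L34
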