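/-
In a central extension of the three-dimensional linear group over four elements by an elementary
two-group: the preimages of the two elementary subgroups of order sixteen are elementary, their
normalisers split over them.
-/
import Cfsg.Agent.L34.MaxElem
import Cfsg.Prelude.Def_Transfer
import Mathlib

set_option autoImplicit false

namespace CfsgLib.L34

open Matrix Matrix.SpecialLinearGroup
open scoped commutatorElement

section graphAut

variable {F : Type*} [Field F]

/-- Inverse transpose in the reversed basis. -/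
def grS : SpecialLinearGroup (Fin 3) F →* SpecialLinearGroup (Fin 3) F where
  toFun g := ⟨((g⁻¹ : SpecialLinearGroup (Fin 3) F) : Matrix (Fin 3) (Fin 3) F)ᵀ.submatrix Fin.revPerm Fin.revPerm, by
    rw [Matrix.det_submatrix_equiv_self, Matrix.det_transpose, det_coe]⟩
  map_one' := Subtype.ext (by simp)
  map_mul' g h := Subtype.ext (by
    show (((g * h)⁻¹ : SpecialLinearGroup (Fin 3) F) : Matrix (Fin 3) (Fin 3) F)ᵀ.submatrix Fin.revPerm Fin.revPerm =
      ((g⁻¹ : SpecialLinearGroup (Fin 3) F) : Matrix (Fin 3) (Fin 3) F)ᵀ.submatrix Fin.revPerm Fin.revPerm *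
        ((h⁻¹ : SpecialLinearGroup (Fin 3) F) : Matrix (Fin 3) (Fin 3) F)ᵀ.submatrix Fin.revPerm Fin.revPerm
    rw [_root_.mul_inv_rev, coe_mul, Matrix.transpose_mul, ← Matrix.submatrix_mul_equiv _ _ _ Fin.revPerm])

theorem grS_grS (g : SpecialLinearGroup (Fin 3) F) : grS (grS g) = g := by
  refine Subtype.ext ?_
  show (((grS g)⁻¹ : SpecialLinearGroup (Fin 3) F) : Matrix (Fin 3) (Fin 3) F)ᵀ.submatrix Fin.revPerm Fin.revPerm = _
  rw [← map_inv]
  show ((((g⁻¹)⁻¹ : SpecialLinearGroup (Fin 3) F) : Matrix (Fin 3) (Fin 3) F)ᵀ.submatrix Fin.revPerm Fin.revPerm)ᵀ.submatrix Fin.revPerm Fin.revPerm = _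
  rw [inv_inv]
  ext i j
  simp

theorem grS_surjective : Function.Surjective (grS (F := F)) := fun g => ⟨grS g, grS_grS g⟩

/-- The graph automorphism of the projective group. -/
def gr : P3 F →* P3 F :=
  QuotientGroup.map _ _ grS fun g hg => Subgroup.mem_comap.2 <|
    Subgroup.mem_center_iff.2 fun h => by
      obtain ⟨h', rfl⟩ := grS_surjective h
      rw [← map_mul, ← map_mul, Subgroup.mem_center_iff.1 hg]

theorem gr_gr (g : P3 F) : gr (gr g) = g := by
  obtain ⟨S, rfl⟩ := QuotientGroup.mk_surjective g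
  exact congrArg QuotientGroup.mk (grS_grS S)

theorem gr_surjective : Function.Surjective (gr (F := F)) := fun g => ⟨gr g, gr_gr g⟩

theorem gr_injective : Function.Injective (gr (F := F)) := fun g h e => by rw [← gr_gr g, e, gr_gr]

variable [Fintype F] (h4 : Fintype.card F = 4)
include h4

theorem gr_uEl (a b c : F) : gr (uEl a b c) = uEl b a (c + a * b) := by
  show (QuotientGroup.mk (grS (uS a b c)) : P3 F) = QuotientGroup.mk (uS b a (c + a * b))
  refine congrArg QuotientGroup.mk ?_
  have hinv : (uS a b c)⁻¹ = uS a b (c + a * b) := by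
    refine inv_eq_of_mul_eq_one_right ?_
    have h2 := two h4
    rw [uS_mul h4, show a + a = 0 by linear_combination a * h2, show b + b = 0 by linear_combination b * h2,
      show c + (c + a * b) + a * b = 0 by linear_combination (c + a * b) * h2]
    simp [uS, CfsgLib.Schur.SLMult.T_zero]
  refine Subtype.ext ?_
  show (((uS a b c)⁻¹ : SpecialLinearGroup (Fin 3) F) : Matrix (Fin 3) (Fin 3) F)ᵀ.submatrix Fin.revPerm Fin.revPerm = _
  rw [hinv, coe_uS, coe_uS]
  ext i j
  fin_cases i <;> fin_cases j <;> simp <;>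
    linear_combination (0 : F) * two h4

end graphAut

variable {F : Type*} [Field F] [Fintype F] (h4 : Fintype.card F = 4)
include h4

variable {X : Type*} [Group X] [Finite X] {π : X →* P3 F} (hπ : Function.Surjective π)
  (hker : π.ker ≤ Subgroup.center X) (hsq : ∀ z ∈ π.ker, z * z = 1)
include hπ hker hsq

/-- Lifts of column translations square to one. -/
theorem lift_sq {h : X} (hh : π h ∈ Acol h4) : h * h = 1 := by
  obtain ⟨v, hv⟩ := hh
  have hz : ∀ {z : X}, π z = 1 → ∀ g : X, g * z = z * g := fun h g =>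
    Subgroup.mem_center_iff.1 (hker (MonoidHom.mem_ker.2 h)) g
  have hcong : ∀ {g k : X}, π g = π k → g * g = k * k := by
    intro g k e
    have hd : π (k⁻¹ * g) = 1 := by rw [map_mul, map_inv, e, inv_mul_cancel]
    calc g * g = k * (k⁻¹ * g) * (k * (k⁻¹ * g)) := by group
      _ = k * k * ((k⁻¹ * g) * (k⁻¹ * g)) := by rw [mul_assoc k, ← mul_assoc _ k, ← hz hd k]; group
      _ = k * k := by rw [hsq _ hd, mul_one]
  by_cases hv0 : v = 0
  · exact hsq _ (MonoidHom.mem_ker.2 (by rw [hv, hv0]; simpa [aEl] using uEl_zero (F := F) h4))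
  obtain ⟨h0, hh0⟩ := hπ (aEl ![0, 1])
  set c0 := h0 * h0 with hc0
  have hc0k : π c0 = 1 := by rw [map_mul, hh0, aEl_sq h4]
  have hall : ∀ {k : X} {w : Fin 2 → F}, w ≠ 0 → π k = aEl w → k * k = c0 := by
    intro k w hw hk
    obtain ⟨M, hM⟩ := CfsgLib.SLn.exists_smul_eq (v := ![(0 : F), 1]) (w := w)
      (fun h => by simpa using congrFun h 1) hw
    obtain ⟨g, hg⟩ := hπ (blk M)
    have e : π k = π (g * h0 * g⁻¹) := by
      rw [map_mul, map_mul, map_inv, hg, hh0, blk_aEl, hk]
      exact congrArg aEl hM.symm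
    rw [hcong e, show g * h0 * g⁻¹ * (g * h0 * g⁻¹) = g * c0 * g⁻¹ by rw [hc0]; group, hz hc0k g,
      mul_inv_cancel_right]
  obtain ⟨w, hw⟩ := exists_gen h4
  have hw0 : w ≠ 0 := fun h => by simp [h] at hw
  have hw1 : (1 : F) + w ≠ 0 := fun h => hw0 (pow_eq_zero_iff two_ne_zero |>.1
    (hw.trans (by linear_combination h)))
  obtain ⟨x, hx⟩ := hπ (aEl ![0, 1])
  obtain ⟨y, hy⟩ := hπ (aEl ![0, w])
  obtain ⟨y', hy'⟩ := hπ (aEl ![1, 0])
  have hcc : c0 * c0 = 1 := hsq _ hc0k
  have hrel : ∀ {a b : X} {u u' : Fin 2 → F}, u ≠ 0 → u' ≠ 0 → u + u' ≠ 0 → π a = aEl u → π b = aEl u' →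
      b * a = c0 * (a * b) := by
    intro a b u u' h1 h2 h3 ha hb
    have e1 := hall h1 ha
    have e2 := hall h2 hb
    have e3 := hall h3 (k := a * b) (by rw [map_mul, ha, hb, aEl_add h4])
    have hi : ∀ {k : X}, k * k = c0 → k⁻¹ = k * c0 := fun e =>
      inv_eq_of_mul_eq_one_right (by rw [← mul_assoc, e, hcc])
    calc b * a = a⁻¹ * (a * b * (a * b)) * b⁻¹ := by group
      _ = a * c0 * c0 * (b * c0) := by rw [e3, hi e1, hi e2]
      _ = a * (c0 * c0) * (b * c0) := by group
      _ = a * (b * c0) := by rw [hcc, mul_one]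
      _ = c0 * (a * b) := by rw [← mul_assoc, hz hc0k]
  have n1 : ![(0 : F), 1] ≠ 0 := fun h => by simpa using congrFun h 1
  have n2 : ![(0 : F), w] ≠ 0 := fun h => hw0 (by simpa using congrFun h 1)
  have n3 : ![(1 : F), 0] ≠ 0 := fun h => by simpa using congrFun h 0
  have n12 : ![(0 : F), 1] + ![0, w] ≠ 0 := fun h => hw1 (by simpa using congrFun h 1)
  have n13 : ![(0 : F), 1] + ![1, 0] ≠ 0 := fun h => by simpa using congrFun h 0
  have n23 : ![(0 : F), w] + ![1, 0] ≠ 0 := fun h => by simpa using congrFun h 0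
  have n123 : ![(0 : F), 1] + ![0, w] + ![1, 0] ≠ 0 := fun h => by simpa using congrFun h 0
  have h13 := hrel n1 n3 n13 hx hy'
  have h23 := hrel n2 n3 n23 hy hy'
  have h123 := hrel n12 n3 n123 (a := x * y) (by rw [map_mul, hx, hy, aEl_add h4]) hy'
  have e : y' * (x * y) = x * y * y' := by
    calc y' * (x * y) = y' * x * y := (mul_assoc _ _ _).symm
      _ = c0 * x * (y' * y) := by rw [h13]; simp only [mul_assoc]
      _ = c0 * x * c0 * (y * y') := by rw [h23]; simp only [mul_assoc]
      _ = c0 * (c0 * x) * (y * y') := by rw [mul_assoc c0 x c0, hz hc0k x]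
      _ = x * y * y' := by rw [← mul_assoc c0 c0 x, hcc, one_mul, ← mul_assoc]
  have hc1 : c0 = 1 := by
    have h := h123.symm.trans e
    rwa [mul_eq_right] at h
  rw [hall hv0 hv, hc1]

theorem comap_elementary : Cfsg.IsElementaryAbelian 2 ((Acol h4).comap π) := by
  have h1 : ∀ g ∈ (Acol h4).comap π, g * g = 1 := fun g hg => lift_sq h4 hπ hker hsq hg
  refine ⟨⟨⟨fun a b => Subtype.ext ?_⟩⟩, fun g hg => by rw [pow_two]; exact h1 g hg⟩
  have ha := inv_eq_of_mul_eq_one_right (h1 _ a.2)
  have hb := inv_eq_of_mul_eq_one_right (h1 _ b.2)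
  have hab := inv_eq_of_mul_eq_one_right (h1 _ (mul_mem a.2 b.2))
  show (a : X) * b = b * a
  rw [← hab, _root_.mul_inv_rev, ha, hb]

omit hπ hker hsq [Finite X] in
include h4 in
theorem gr_ker : ((gr (F := F)).comp π).ker = π.ker := by
  ext x
  simp only [MonoidHom.mem_ker, MonoidHom.comp_apply]
  exact map_eq_one_iff _ gr_injective

/-- The normaliser of the preimage splits. -/
theorem exists_complement :
    ∃ C : Subgroup X, C ≤ Subgroup.normalizer (((Acol h4).comap π : Subgroup X) : Set X) ∧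
      C ⊓ (Acol h4).comap π = ⊥ ∧
      (Acol h4).comap π ⊔ C = Subgroup.normalizer (((Acol h4).comap π : Subgroup X) : Set X) ∧
      Nonempty (↥C ≃* Matrix.ProjectiveSpecialLinearGroup (Fin 2) F) := by
  have hnorm : Subgroup.normalizer (((Acol h4).comap π : Subgroup X) : Set X) =
      (Acol h4 ⊔ (blk (F := F)).range).comap π := by
    rw [← normalizer_Acol h4, Subgroup.comap_normalizer_eq_of_surjective _ hπ]
  set P : Subgroup X := (blk (F := F)).range.comap π with hP
  -- an abelian Sylow subgroup of the preimage of the block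
  let pB : X →* P3 F := gr.comp π
  have hBel := comap_elementary h4 (π := pB) (gr_surjective.comp hπ) (by rw [gr_ker h4]; exact hker)
    (by rw [gr_ker h4]; exact hsq)
  let S : Subgroup P := ((Acol h4).comap pB).subgroupOf P
  letI : CommGroup S := { (inferInstance : Group S) with
    mul_comm := fun a b => Subtype.ext (Subtype.ext
      (show ((a : P) : X) * ((b : P) : X) = ((b : P) : X) * ((a : P) : X) from congrArg Subtype.val
        (hBel.1.is_comm.comm (⟨_, a.2⟩ : (Acol h4).comap pB) ⟨_, b.2⟩))) }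
  let bm : P →* (blk (F := F)).range := π.subgroupComap (blk (F := F)).range
  have hbm : Function.Surjective bm := fun g => by
    obtain ⟨x, hx⟩ := hπ g
    exact ⟨⟨x, by rw [hP, Subgroup.mem_comap, hx]; exact g.2⟩, Subtype.ext hx⟩
  have hSidx : Odd S.index := by
    have hSeq : S = (((Acol h4).comap gr).subgroupOf (blk (F := F)).range).comap bm := rfl
    rw [hSeq, Subgroup.index_comap_of_surjective _ hbm]
    let tv : F → SpecialLinearGroup (Fin 2) F := fun a => ⟨!![1, a; 0, 1], by simp [Matrix.det_fin_two_of]⟩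
    have htv : ∀ a : F, blk (tv a) = uEl a 0 0 := fun a => congrArg QuotientGroup.mk (Subtype.ext (by
      rw [coe_blkS, coe_uS]
      ext i j
      fin_cases i <;> fin_cases j <;> simp [blkM, tv]))
    have hge : 4 ≤ Nat.card (((Acol h4).comap gr).subgroupOf (blk (F := F)).range) := by
      let f : F → ((Acol h4).comap gr).subgroupOf (blk (F := F)).range := fun a =>
        ⟨⟨_, tv a, htv a⟩, by
          rw [Subgroup.mem_subgroupOf, Subgroup.mem_comap, gr_uEl h4]
          exact ⟨![0, a], by simp [aEl]⟩⟩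
      have hf : Function.Injective f := fun a b e => by
        have := congrArg (fun z : ((Acol h4).comap gr).subgroupOf (blk (F := F)).range =>
          ((z : (blk (F := F)).range) : P3 F)) e
        exact (uEl_injective this).1
      have := Nat.card_le_card_of_injective f hf
      rwa [Nat.card_eq_fintype_card, h4] at this
    have hcard : Nat.card (blk (F := F)).range = 60 := by
      rw [← Nat.card_congr (MonoidHom.ofInjective blk_injective).toEquiv]
      have h := CfsgLib.SLn.card_SL_eq F 2 (by norm_num)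
      rw [h4, Fin.prod_univ_two] at h
      norm_num at h
      omega
    have hd := Subgroup.card_mul_index (((Acol h4).comap gr).subgroupOf (blk (F := F)).range)
    have h2g : ∀ x : ((Acol h4).comap gr).subgroupOf (blk (F := F)).range, x ^ 2 = 1 := fun x => by
      obtain ⟨v, hv⟩ := x.2
      refine Subtype.ext (Subtype.ext (gr_injective (Eq.trans ?_ (map_one _).symm)))
      show gr ((((x : (blk (F := F)).range)) : P3 F) ^ 2) = 1
      rw [map_pow, pow_two]
      exact (congrArg₂ (· * ·) hv hv).trans (aEl_sq h4 v)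
    obtain ⟨n, hn⟩ := (IsPGroup.iff_card (p := 2) (G := ((Acol h4).comap gr).subgroupOf (blk (F := F)).range)).1
      (fun x => ⟨1, by rw [pow_one]; exact h2g x⟩)
    rw [hn, hcard] at hd
    rw [hn] at hge
    have h2n : 2 ^ n ∣ 60 := ⟨_, hd.symm⟩
    have hn2 : n = 2 := by
      have hlt : n < 3 := by
        by_contra h
        have := (pow_dvd_pow 2 (show 3 ≤ n by omega)).trans h2n
        norm_num at this
      interval_cases n <;> simp_all
    subst hn2
    rw [show (((Acol h4).comap gr).subgroupOf (blk (F := F)).range).index = 15 by omega]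
    exact ⟨7, rfl⟩
  let C : Subgroup X := (commutator P).map P.subtype
  have hCP : C ≤ P := Subgroup.map_subtype_le _
  have hinj : ∀ g ∈ C, π g = 1 → g = 1 := by
    rintro _ ⟨g, hg, rfl⟩ hone
    have hzk : (g : X) ∈ π.ker := MonoidHom.mem_ker.2 hone
    have hgc : ∀ x : P, x * g = g * x := fun x => Subtype.ext (Subgroup.mem_center_iff.1 (hker hzk) x)
    have h1 := MonoidHom.transfer_eq_pow (MonoidHom.id S) g (fun k g₀ _ => by
      rw [mul_assoc, ← (Commute.pow_right (hgc g₀) k).eq, inv_mul_cancel_left])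
    rw [(Abelianization.commutator_subset_ker (MonoidHom.transfer (MonoidHom.id S)) hg)] at h1
    have hg2 : g * g = 1 := Subtype.ext (hsq _ hzk)
    obtain ⟨r, hr⟩ := hSidx
    have h3 : g ^ S.index = 1 := (congrArg Subtype.val h1).symm
    rw [hr, pow_succ, pow_mul, pow_two, hg2, one_pow, one_mul] at h3
    rw [h3]; rfl
  have hperf : commutator (SpecialLinearGroup (Fin 2) F) = ⊤ := by
    obtain ⟨w, hw⟩ := exists_gen h4
    refine CfsgLib.SLn.commutator_eq_top (Or.inr ⟨w, fun h => by simp [h] at hw, fun h => ?_⟩)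
    rw [hw] at h
    have hw0 : w = 0 := by linear_combination h
    simp [hw0] at hw
  have himg : C.map π = (blk (F := F)).range := by
    have e1 : π.comp P.subtype = (blk (F := F)).range.subtype.comp bm := rfl
    rw [Subgroup.map_map, e1, ← Subgroup.map_map, commutator_def, Subgroup.map_commutator,
      Subgroup.map_top_of_surjective _ hbm, Subgroup.map_commutator, ← MonoidHom.range_eq_map,
      Subgroup.range_subtype, MonoidHom.range_eq_map, ← Subgroup.map_commutator, ← commutator_def, hperf]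
  have hCle : C ≤ Subgroup.normalizer (((Acol h4).comap π : Subgroup X) : Set X) :=
    hnorm ▸ hCP.trans (Subgroup.comap_mono le_sup_right)
  refine ⟨C, hCle, ?_, ?_, ?_⟩
  · rw [eq_bot_iff]
    rintro g ⟨hgC, hgA⟩
    refine hinj g hgC ?_
    obtain ⟨M, hM⟩ := hCP hgC
    obtain ⟨v, hv⟩ := hgA
    obtain ⟨r, -, hr⟩ := mem_center_iff.1 (QuotientGroup.eq.1
      (show (QuotientGroup.mk (blkS M) : P3 F) = QuotientGroup.mk (uS 0 (v 1) (v 0)) from hM.trans hv))
    have h1 : uS 0 (v 1) (v 0) = blkS M * ((blkS M)⁻¹ * uS 0 (v 1) (v 0)) := (mul_inv_cancel_left _ _).symm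
    have h2 := congrArg (fun g : SpecialLinearGroup (Fin 3) F => (g : Matrix (Fin 3) (Fin 3) F)) h1
    simp only [coe_mul] at h2
    rw [coe_mul] at hr
    rw [← hr, coe_uS, coe_blkS] at h2
    have e02 := congrFun (congrFun h2 0) 2
    have e12 := congrFun (congrFun h2 1) 2
    simp [blkM, Matrix.mul_apply, Fin.sum_univ_succ, Matrix.scalar_apply, Matrix.diagonal] at e02 e12
    rw [hv, aEl, e02, e12]
    exact uEl_zero h4
  · refine le_antisymm (sup_le Subgroup.le_normalizer hCle) fun g hg => ?_
    rw [hnorm, Subgroup.mem_comap, ← SetLike.mem_coe,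
      Subgroup.coe_mul_of_right_le_normalizer_left _ _
        (by rw [normalizer_Acol h4]; exact le_sup_right)] at hg
    obtain ⟨a, ha, b, hb, hab⟩ := hg
    obtain ⟨c, hc, hcb⟩ := (show b ∈ C.map π from himg ▸ hb)
    rw [← inv_mul_cancel_right g c]
    refine mul_mem (Subgroup.mem_sup_left ?_) (Subgroup.mem_sup_right hc)
    show π (g * c⁻¹) ∈ Acol h4
    rw [map_mul, map_inv, hcb, ← hab]
    simpa using ha
  · let f : C →* (blk (F := F)).range :=
      (π.comp C.subtype).codRestrict _ fun c => himg.le (Subgroup.mem_map_of_mem π c.2)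
    have hf : Function.Bijective f := by
      refine ⟨(injective_iff_map_eq_one _).2 fun c hc => Subtype.ext (hinj c c.2 (congrArg Subtype.val hc)),
        fun b => ?_⟩
      obtain ⟨c, hc, hcb⟩ := (show (b : P3 F) ∈ C.map π from himg.ge b.2)
      exact ⟨⟨c, hc⟩, Subtype.ext hcb⟩
    have hc2 : Subgroup.center (SpecialLinearGroup (Fin 2) F) = ⊥ := by
      refine eq_bot_iff.2 fun z hz => ?_
      obtain ⟨r, hr, e⟩ := mem_center_iff.1 hz
      rw [Fintype.card_fin] at hr
      have hr1 : r = 1 := by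
        have h : (r - 1) * (r - 1) = 0 := by linear_combination hr - (r - 1) * two h4
        exact sub_eq_zero.1 (mul_self_eq_zero.1 h)
      subst hr1
      rw [Subgroup.mem_bot]
      exact Subtype.ext (by rw [← e]; simp)
    exact ⟨(MulEquiv.ofBijective f hf).trans ((MonoidHom.ofInjective blk_injective).symm.trans
      ((QuotientGroup.quotientMulEquivOfEq hc2).trans QuotientGroup.quotientBot).symm)⟩

end CfsgLib.L34

namespace CfsgLib.L34

variable {F : Type*} [Field F] [Fintype F] (h4 : Fintype.card F = 4)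
variable {X : Type*} [Group X] [Finite X] {π : X →* P3 F}

/-- The centre of the join of the two preimages. -/
theorem inf_eq_center (hπ : Function.Surjective π) (hker : π.ker ≤ Subgroup.center X)
    (hsq : ∀ z ∈ π.ker, z * z = 1) :
    (Acol h4).comap π ⊓ (Acol h4).comap (gr.comp π) =
      (Subgroup.center ↥((Acol h4).comap π ⊔ (Acol h4).comap (gr.comp π))).map
        ((Acol h4).comap π ⊔ (Acol h4).comap (gr.comp π)).subtype := by
  set H := (Acol h4).comap π
  set K := (Acol h4).comap (gr.comp π)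
  have hH := comap_elementary h4 hπ hker hsq
  have hK := comap_elementary h4 (π := gr.comp π) (gr_surjective.comp hπ) (by rw [gr_ker h4]; exact hker)
    (by rw [gr_ker h4]; exact hsq)
  refine le_antisymm ?_ ?_
  · intro g hg
    refine ⟨⟨g, Subgroup.mem_sup_left hg.1⟩, Subgroup.mem_center_iff.2 fun y => ?_, rfl⟩
    have hle : H ⊔ K ≤ Subgroup.centralizer ({g} : Set X) := sup_le
      (fun a ha => Subgroup.mem_centralizer_singleton_iff.2
        (congrArg Subtype.val (hH.1.is_comm.comm ⟨a, ha⟩ ⟨g, hg.1⟩)))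
      (fun a ha => Subgroup.mem_centralizer_singleton_iff.2
        (congrArg Subtype.val (hK.1.is_comm.comm ⟨a, ha⟩ ⟨g, hg.2⟩)))
    exact Subtype.ext (Subgroup.mem_centralizer_singleton_iff.1 (hle y.2))
  · rintro _ ⟨⟨g, hg⟩, hc, rfl⟩
    have hU : π g ∈ Usub h4 := by
      refine (sup_le (show H ≤ (Usub h4).comap π from Subgroup.comap_mono (Acol_le h4)) ?_) hg
      intro k hk
      obtain ⟨v, hv⟩ := hk
      have e : π k = gr (aEl v) := by rw [← hv]; exact (gr_gr _).symm
      exact ⟨_, _, _, e.trans (gr_uEl h4 _ _ _)⟩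
    obtain ⟨a, b, c, habc⟩ := hU
    obtain ⟨p, hp⟩ := hπ (uEl 0 1 0)
    obtain ⟨q, hq⟩ := hπ (uEl 1 0 0)
    have hpm : p ∈ H ⊔ K := Subgroup.mem_sup_left ⟨![0, 1], by simp [aEl, hp]⟩
    have hqm : q ∈ H ⊔ K := Subgroup.mem_sup_right ⟨![0, 1], by simp [aEl, hq, gr_uEl h4]⟩
    have h1 := congrArg π (congrArg Subtype.val (Subgroup.mem_center_iff.1 hc ⟨p, hpm⟩))
    have h2 := congrArg π (congrArg Subtype.val (Subgroup.mem_center_iff.1 hc ⟨q, hqm⟩))
    simp only [Subgroup.coe_mul, map_mul, hp, hq, habc, uEl_mul h4] at h1 h2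
    have ha : a = 0 := by simpa using (uEl_injective h1).2.2
    have hb : b = 0 := by
      have := (uEl_injective h2).2.2
      linear_combination -this
    subst ha hb
    refine ⟨⟨![c, 0], by simp [aEl, habc]⟩, ⟨![c, 0], ?_⟩⟩
    show gr (π g) = _
    rw [habc, gr_uEl h4]
    simp [aEl]

end CfsgLib.L34
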